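import Cfsg.Agent.Ey.B

/-! The adjoint module of `E₈(2)`: diagonal form of the semisimple elements. -/

set_option autoImplicit false

namespace CF.Ey.E0

open Module CF.E83 CF.Chev CF.BN CF.ExA Cfsg.Lie Finset CF.Geom.Sm Matrix

/-- The weights are invariant under doubling. -/
def Dbl (M : ℕ) (y : Fin 8 → ℤ) : Prop := ∀ G, ES cE8 M G ((2 : ℤ) • y) = ES cE8 M G y

theorem red_dvd {m M : ℕ} (h : m ∣ M) {a b : Fin 8 → ℤ} (e : red M a = red M b) : red m a = red m b :=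
  funext fun i => (ZMod.intCast_eq_intCast_iff _ _ _).2
    (((ZMod.intCast_eq_intCast_iff _ _ _).1 (congrFun e i)).of_dvd (Int.natCast_dvd_natCast.2 h))

theorem dvd_of_all {m k : ℕ} {y : Fin 8 → ℤ} {z : List ℤ} (d : k ∣ m) (h : red m y = red m (vv (gl z)))
    (hz : z.all (· % k == 0)) (i : Fin 8) : (k : ℤ) ∣ y i := by
  refine (ZMod.intCast_zmod_eq_zero_iff_dvd _ _).1 ((congrFun (red_dvd d h) i).trans
    ((ZMod.intCast_zmod_eq_zero_iff_dvd _ _).2 ?_))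
  by_cases hi : i.1 < z.length
  · exact Int.dvd_of_emod_eq_zero (beq_iff_eq.1 (List.all_eq_true.1 hz _ (by simp [vv, gl, hi])))
  · simp [vv, gl, List.getElem?_eq_none (not_lt.1 hi)]

variable {X : Type*} [Group X] {L : LS cE8 1 2 2 1 X} {m M : ℕ} {μ : L.Kˣ} {x : X} {g : L.G} {y : Fin 8 → ℤ}

theorem diag [NeZero m] [NeZero M] (d : m ∣ M) (hM : M.Coprime 2) (hμ : orderOf μ = M) (hx : x ^ M = 1)
    {Q : List ℤ → List ℕ → Bool} (h : chk m Q) : ∃ g ∈ L.h.Alg 2, ∃ y : Fin 8 → ℤ,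
      jG L x = g * L.h.r3.tor (fun i => μ ^ y i) * g⁻¹ ∧ Dbl M y ∧
      ∃ z : List ℤ, red m y = red m (vv (gl z)) ∧ Q z (vals m z) := by
  obtain ⟨g, hg, y, e, w, hw, h3⟩ := exists_diag hM hμ hx
  rw [Mz_red, ← red_smul] at h3
  obtain ⟨v, hv, z, h4⟩ := alc h hw (y := y) (by rw [Mz_red, ← red_smul]; exact red_dvd d h3)
  obtain ⟨l, rfl⟩ := cE8.mem_W_iff.1 hv
  refine ⟨g * (L.ρ.nw l)⁻¹, mul_mem hg (inv_mem (L.h.nw_mem_Alg l)), _, ?_, fun G => ?_, z, h4⟩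
  · rw [← mp_zpow, ← conj_tor L.h.r3 (L.ρ.acts_nw l), e]; group
  · rw [← mulVec_smul, ES_Mw hv, ES_Mw hv, ← ES_congr h3, ES_Mw hw]

theorem pow_diag (e : jG L x = g * L.h.r3.tor (fun i => μ ^ y i) * g⁻¹) (k : ℕ) :
    jG L (x ^ k) = g * L.h.r3.tor (fun i => μ ^ ((k : ℤ) • y) i) * g⁻¹ := by
  rw [map_pow, e, conj_pow, ← map_pow, zp_pow']

theorem one_of (hμ : orderOf μ = M) (e : jG L x = g * L.h.r3.tor (fun i => μ ^ y i) * g⁻¹) {k : ℕ}
    (h : ∀ i, (M : ℤ) ∣ k * y i) : x ^ k = 1 := by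
  have := pow_diag e k
  rw [(zp_iff hμ (a := (k : ℤ) • y) (b := 0)).2 (funext fun i => ((ZMod.intCast_zmod_eq_zero_iff_dvd _ _).2 (h i)).trans
    Int.cast_zero.symm)] at this
  exact (in_jG L).inj (by simpa [← Pi.one_def] using this)

variable {f : L.G →* GL Ix L.K} (hf : L.ρ.IsAdHom f)
include hf

theorem ed_eq (hμ : orderOf μ = M) (e : jG L x = g * L.h.r3.tor (fun i => μ ^ y i) * g⁻¹) (j : ℕ) :
    (ed (rX L f) ⊤ x ((μ ^ j : L.Kˣ) : L.K) : ℤ) = ES cE8 M (ind M 1 (j % M)) y := by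
  have k : ∀ (A : End L.K (Ix → L.K)) (c : L.K), A.eigenspace c = fs (A + (1 - c) • 1) := fun A c =>
    Submodule.ext fun v => by simp [mem_fs, sub_smul, ← sub_eq_zero (a := A v), ← sub_eq_zero (b := v)]; abel_nf
  rw [← rk_tor L.h.r3 hf hμ y j, ed, top_inf_eq, k, k, ← fs_conj (r := RR f) (RR f _ + _) g, MonoidHom.comp_apply, e, map_mul,
    map_mul, mul_add, add_mul, mul_smul_comm, smul_mul_assoc, mul_one, ← map_mul (RR f) g g⁻¹, mul_inv_cancel, map_one,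
    zpow_natCast]

theorem dm_eq (hμ : orderOf μ = M) (e : jG L x = g * L.h.r3.tor (fun i => μ ^ y i) * g⁻¹) (k : ℕ) :
    (dm (rX L f) (x ^ k) : ℤ) = ES cE8 M (ind M k 0) y := by
  have := ed_eq hf hμ (pow_diag e k) 0
  rwa [ed, top_inf_eq, pow_zero, Units.val_one, ← (fs_eig _).1, Nat.cast_zero, Int.zero_emod, ES_ind] at this

end CF.Ey.E0
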