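import Cfsg.Agent.Ey.E0

/-! The adjoint module of `E₈(2)`: the elements of order `65` and `63`. -/

set_option autoImplicit false

namespace CF.Ey

open Module CF.E83 CF.Chev CF.BN CF.ExA Cfsg.Lie Finset CF.Geom.Sm Matrix E0

namespace E2

/-- `a + s c` -/
noncomputable def zw (s : ℕ) (a : List ℕ) : List ℕ → List ℕ :=
  List.rec (fun _ => []) (fun x _ ih c => List.rec [] (fun u c _ => Nat.add x (Nat.mul s u) :: ih c) c) a

theorem zw_map (s : ℕ) (R : List ℕ) (A C : ℕ → ℕ) : zw s (R.map A) (R.map C) = R.map fun r => A r + s * C r := by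
  induction R with
  | nil => rfl
  | cons r R ih => exact congrArg (_ :: ·) ih

/-- all linear combinations -/
noncomputable def en (cs : List (ℕ × List ℕ)) (P : ℕ → List ℕ → Bool) : ℕ → List ℕ → Bool :=
  List.rec P (fun e _ ih t a => cond (Nat.beq e.1 1) (ih t a) (Comp.forceL a fun a => allLt e.1 fun s =>
    ih (Nat.add t s) (zw s a e.2))) cs

theorem of_en {R I : List ℕ} {bd z : ℕ → ℕ} {C : ℕ → ℕ → ℕ} {P : ℕ → List ℕ → Bool} (hz : ∀ i ∈ I, z i < bd i) {t : ℕ}
    {A : ℕ → ℕ} (h : en (I.map fun i => (bd i, R.map (C i))) P t (R.map A)) :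
    P (t + (I.map z).sum) (R.map fun r => A r + (I.map fun i => z i * C i r).sum) := by
  induction I generalizing t A with
  | nil => exact h
  | cons i I ih =>
    have z1 := hz i (.head _)
    change cond (Nat.beq (bd i) 1) _ _ = true at h
    rcases e : Nat.beq (bd i) 1 <;> rw [e] at h
    swap
    · have : z i = 0 := by have := Nat.eq_of_beq_eq_true e; omega
      simpa only [List.map_cons, List.sum_cons, this, zero_mul, zero_add] using ih (fun j hj => hz j (.tail _ hj)) h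
    have := allLt_iff.1 ((Comp.forceL_eq _ _).symm.trans h) _ z1
    rw [zw_map] at this
    simpa only [List.map_cons, List.sum_cons, add_assoc, Nat.add_eq] using ih (fun j hj => hz j (.tail _ hj)) this

/-- a sum -/
noncomputable def sN (g : ℕ → ℕ) (l : List ℕ) : ℕ := List.rec 0 (fun a _ ih => Nat.add (g a) ih) l

theorem sN_eq (g : ℕ → ℕ) (l : List ℕ) : (sN g l : ℤ) = (l.map fun a => (g a : ℤ)).sum := by
  induction l with
  | nil => rfl
  | cons a l ih => rw [List.map_cons, List.sum_cons, ← ih]; exact Nat.cast_add _ _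

/-- evaluation of the columns -/
noncomputable def fc (cs : List (ℕ × List ℕ)) : (List (ℕ × List ℕ) → Bool) → Bool :=
  List.rec (fun k => k []) (fun e _ ih k => force e.1 fun a => Comp.forceL e.2 fun b => ih fun t => k ((a, b) :: t)) cs

theorem fc_eq (cs : List (ℕ × List ℕ)) (k : List (ℕ × List ℕ) → Bool) : fc cs k = k cs := by
  induction cs generalizing k with
  | nil => rfl
  | cons e cs ih =>
    show force e.1 (fun a => Comp.forceL e.2 fun b => fc cs fun t => k ((a, b) :: t)) = _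
    rw [force_eq, Comp.forceL_eq]; exact ih _

/-- the check of all vectors over `x` -/
noncomputable def chkE (m M : ℕ) (a b : ℤ) (x : List ℤ) (bd : List ℕ) (p : ℕ → Bool) (P : ℕ → List ℕ → Bool) : Bool :=
  Comp.forceL ((List.range 240).filter fun r => p (xv m (gl x) r)) fun R =>
    fc ((List.range 8).map fun i => (bd.getD i 0, R.map fun r => (b * tabE8.car i r % M).toNat)) fun cs =>
      en cs P 0 (R.map (xv M fun i => a * gl x i))

/-- a linear condition -/
noncomputable def chkL (m k : ℕ) (x c : List ℤ) (j : ℕ) : Bool :=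
  Comp.forceL (vals m x) fun l => allLt 8 fun i => (sumLt 240 (fun r => (2 * c.getD (2 * l.getD r 0 % m) 0 -
    c.getD (l.getD r 0) 0) * tabE8.car i r) - if i = j then 1 else 0) % k == 0

theorem sum_flt (l : List ℕ) (q : ℕ → Bool) (F : ℕ → ℤ) (h : ∀ r ∈ l, ¬ q r → F r = 0) :
    (l.map F).sum = ((l.filter q).map F).sum := by
  induction l with
  | nil => rfl
  | cons a l ih =>
    have := ih fun r hr => h r (.tail _ hr)
    by_cases e : q a
    · simp [e, this]
    · simp [e, this, h a (.head _) e]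

variable {m k M : ℕ} {a b : ℤ} {x : List ℤ} {y : Fin 8 → ℤ}

theorem xv_y (hm : 0 < m) (hx : red m y = red m (vv (gl x))) (d : m ∣ M) (r : Fin 240) :
    pr cE8 y (cE8.vec r) % M % m = xv m (gl x) r := by
  rw [Int.emod_emod_of_dvd _ (Int.natCast_dvd_natCast.2 d), xv_eq hm, ← ZMod.intCast_eq_intCast_iff', pr_red, pr_red, hx]

theorem of_chkE {bd : List ℕ} {p : ℕ → Bool} {P : ℕ → List ℕ → Bool} (h : chkE m M a b x bd p P) (hm : 0 < m) (hk : 0 < k)
    (hM : 0 < M) (d : m ∣ M) (crt : ∀ u v : ℤ, u % m = v % m → (a * v + b * (u % k)) % M = u % M)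
    (hx : red m y = red m (vv (gl x))) (hz : ∀ i : Fin 8, bd.getD i 0 = k ∨ bd.getD i 0 = 1 ∧ (k : ℤ) ∣ y i) :
    ∃ t l, P t l ∧ (t = 0 → ∀ i, (k : ℤ) ∣ y i) ∧ (∀ n ∈ l, p (n % m)) ∧ ∀ G : ℤ → ℤ, (∀ n : ℤ, ¬ p (n % m).toNat → G n = 0) →
      ES cE8 M G y = 8 * G 0 + (l.map fun n : ℕ => G (n % M)).sum := by
  obtain ⟨u, rfl⟩ : ∃ u, y = vv (gl u) := ⟨_, (vv_ofFn y).symm⟩
  simp only [chkE, Comp.forceL_eq, fc_eq] at h
  have z0 : ∀ i, (((gl u i % k).toNat : ℕ) : ℤ) = gl u i % k := fun i =>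
    Int.toNat_of_nonneg (Int.emod_nonneg _ (by omega))
  have key : ∀ r < 240, ((xv M (fun i => a * gl x i) r + ((List.range 8).map fun i => (gl u i % k).toNat *
      (b * tabE8.car i r % M).toNat).sum : ℕ) : ℤ) % M = xv M (gl u) r ∧ xv M (gl u) r % m = xv m (gl x) r := fun r hr => by
    obtain ⟨r, rfl⟩ : ∃ s : Fin 240, s.1 = r := ⟨⟨r, hr⟩, rfl⟩
    refine ⟨?_, Nat.cast_injective (R := ℤ) (by rw [Int.natCast_mod, xv_eq hM, xv_y hm hx d])⟩
    rw [xv_eq hM, ← ZMod.intCast_eq_intCast_iff', Int.cast_natCast, Nat.cast_add, xv_cast hM,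
      ← show ∀ (n : ℕ) (F : ℕ → ℕ), ∑ j ∈ range n, F j = ((List.range n).map F).sum from fun _ _ => rfl, sum_range,
      pr_vec, pr_vec, Nat.cast_sum, Int.cast_sum, Int.cast_sum, ← sum_add_distrib]
    refine sum_congr rfl fun i _ => ?_
    have e := (ZMod.intCast_eq_intCast_iff' _ _ M).2 (crt (gl u i) (gl x i)
      ((ZMod.intCast_eq_intCast_iff' _ _ m).1 (congrFun hx i)))
    rw [Nat.cast_mul, ← Int.cast_natCast, z0, ← Int.cast_natCast (R := ZMod M) (Int.toNat _),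
      Int.toNat_of_nonneg (Int.emod_nonneg _ (by omega)), ZMod.intCast_mod, ← tabOf8.car, vv, vv, Int.cast_mul (gl u i), ← e]
    push_cast; ring
  refine ⟨_, _, of_en (z := fun i => (gl u i % k).toNat) (fun i hi => ?_) h, fun e i => ?_, fun n hn => ?_, fun G hG => ?_⟩
  · have := z0 i
    have := Int.emod_lt_of_pos (gl u i) (show (0 : ℤ) < k by omega)
    rcases hz ⟨i, List.mem_range.1 hi⟩ with q | ⟨q, q'⟩
    · simp only at q; omega
    · have := Int.emod_eq_zero_of_dvd q'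
      simp only [vv] at q this; omega
  · have := List.sum_eq_zero_iff.1 ((zero_add _).symm.trans e) _ (List.mem_map_of_mem (List.mem_range.2 i.2))
    exact Int.dvd_of_emod_eq_zero (by rw [vv, ← z0, this]; rfl)
  · obtain ⟨r, hr, rfl⟩ := List.mem_map.1 hn
    obtain ⟨q, q'⟩ := key r (List.mem_range.1 (List.mem_filter.1 hr).1)
    rw [← Nat.mod_mod_of_dvd _ d, Nat.cast_injective (R := ℤ) ((Int.natCast_mod _ _).trans q), q']
    exact (List.mem_filter.1 hr).2
  rw [ES_eq hM, sl, vals, List.map_map, List.map_map, sum_flt _ (fun r => p (xv m (gl x) r))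
    ((fun n : ℕ => G n) ∘ xv M (gl u)) fun r hr q => hG _ (by
      rwa [← Int.natCast_mod, Int.toNat_natCast, (key r (List.mem_range.1 hr)).2])]
  exact congrArg (_ + List.sum ·) (List.map_congr_left fun r hr => congrArg G
    (key r (List.mem_range.1 (List.mem_filter.1 hr).1)).1.symm)

theorem of_chkL {c : List ℤ} {j : Fin 8} (h : chkL m k x c j) (hm : 0 < m) (d : m ∣ M) (d' : k ∣ M)
    (hx : red m y = red m (vv (gl x))) (D : Dbl M y) : (k : ℤ) ∣ y j := by
  have e := D fun n => c.getD (n % m).toNat 0 * n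
  rw [ES_smul, ES, ES, mul_zero, Int.zero_emod, add_right_inj, ← sub_eq_zero, ← sum_sub_distrib] at e
  have e' := congrArg (Int.cast (R := ZMod k)) e
  have md : ∀ n : ℤ, ((n % M : ℤ) : ZMod k) = n := fun n =>
    (ZMod.intCast_eq_intCast_iff' _ _ k).2 (Int.emod_emod_of_dvd _ (Int.natCast_dvd_natCast.2 d'))
  have hl : ∀ r : Fin 240, (vals m x).getD r 0 = xv m (gl x) r := fun r => by simp [vals]
  simp only [chkL, Comp.forceL_eq, allLt_iff, beq_iff_eq, sumLt_eq, hl] at h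
  rw [← ZMod.intCast_zmod_eq_zero_iff_dvd, ← Int.cast_zero, ← e', Int.cast_sum]
  symm
  calc _ = ∑ r : Fin 240, ∑ i : Fin 8, (y i : ZMod k) * (((2 * c.getD (2 * xv m (gl x) r % m) 0 -
        c.getD (xv m (gl x) r) 0) * tabE8.car i r : ℤ) : ZMod k) := sum_congr rfl fun r _ => by
        have q := xv_y hm hx d r
        have q' : 2 * (pr cE8 y (cE8.vec r) % M) % M % m = (2 * xv m (gl x) r % m : ℕ) := by
          rw [Int.emod_emod_of_dvd _ (Int.natCast_dvd_natCast.2 d), Int.natCast_mod, Nat.cast_mul, ← q]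
          exact ((Int.mod_modEq _ _).mul_left 2).symm
        rw [q, q', Int.toNat_natCast, Int.toNat_natCast]
        push_cast [md, pr_vec, tabOf8.car, mul_sum, ← sum_sub_distrib]
        exact sum_congr rfl fun i _ => by ring
    _ = ∑ i, (y i : ZMod k) * if i = j then 1 else 0 := by
        rw [sum_comm]
        refine sum_congr rfl fun i _ => ?_
        rw [← mul_sum, ← Int.cast_sum, (ZMod.intCast_eq_intCast_iff_dvd_sub _ _ k).2
          (dvd_sub_comm.1 (Int.dvd_of_emod_eq_zero (h i i.2)))]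
        simp [Fin.ext_iff]
    _ = _ := by simp

/-- invariance of the weights under multiplication by `u` fails -/
noncomputable def bad (M u Q : ℕ) (l : List ℕ) : Bool :=
  !Nat.beq (Nat.mod (sN (fun a => Nat.add (Nat.pow 256 (Nat.mod a M)) (Nat.mul Q (Nat.pow 256 (Nat.mod (Nat.mul u a) M)))) l)
    (Nat.succ Q)) 0

/-- a multiplicity -/
def mu (k j : ℤ) (l : List ℕ) : ℤ := 8 * ind 65 k j 0 + (l.map fun n : ℕ => ind 65 k j (n % (65 : ℕ))).sum

theorem ct : chkE 13 65 40 26 (x13 true) [1, 1, 5, 5, 1, 5, 5, 1] (fun _ => true) fun t l => bad 65 2 (2 ^ 600) l || t == 0 ||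
    Comp.forceL l fun l =>
      [0, 1, 3, 7, 11, 5, 13].map (fun i : ℕ => (mu 1 (i % (65 : ℕ)) l).toNat) ∈ T65 && mu 5 0 l == 20 := by
  decide +kernel

theorem cf : chkE 13 65 40 26 (x13 false) [1, 5, 5, 5, 5, 1, 1, 1] (fun _ => true) fun t l => bad 65 2 (2 ^ 600) l || t == 0 := by
  decide +kernel

theorem l13t : chkL 13 5 (x13 true) [0, 0, 3, 0, 0, 2] (0 : Fin 8) ∧ chkL 13 5 (x13 true) [0, 1, 1, 3, 0, 4] (1 : Fin 8) ∧
    chkL 13 5 (x13 true) [0, 2, 0, 1, 0, 4] (4 : Fin 8) ∧ chkL 13 5 (x13 true) [0, 3, 1, 2, 0, 3] (7 : Fin 8) := by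
  decide +kernel

theorem l13f : chkL 13 5 (x13 false) [0, 0, 1, 3, 0, 2] (0 : Fin 8) ∧ chkL 13 5 (x13 false) [0, 0, 1, 2, 0, 3] (5 : Fin 8) ∧
    chkL 13 5 (x13 false) [0, 1, 4, 1, 0, 2] (6 : Fin 8) ∧ chkL 13 5 (x13 false) [0, 3, 3, 2, 0, 3] (7 : Fin 8) := by
  decide +kernel

/-- an element of order `9` -/
def x9 : List ℤ := [13, 19, 25, 37, 30, 23, 16, 8]

theorem chk9 : chk 9 fun x l => x.all (· % 3 == 0) || x == x9 ||
    (sl (ind 9 1 0) l ∈ [28, 34, 48] && sl (ind 9 3 0) l == 86) := by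
  decide +kernel

theorem l9 : chkL 9 7 x9 [0, 6, 4, 3] (0 : Fin 8) ∧ chkL 9 7 x9 [0, 1, 2, 3] (1 : Fin 8) ∧
    chkL 9 7 x9 [0, 6, 2, 3] (6 : Fin 8) := by
  decide +kernel

theorem c9 : chkE 9 63 28 36 x9 [1, 1, 7, 7, 7, 7, 1, 7] (· == 3) fun t l => bad 7 5 (2 ^ 64) l || t == 0 := by
  decide +kernel

theorem not_bad {u Q : ℕ} {l : List ℕ} (h : (l.map fun a : ℕ => ((256 ^ (u * a % M) : ℕ) : ℤ)).sum =
    (l.map fun a : ℕ => ((256 ^ (a % M) : ℕ) : ℤ)).sum) : ¬ bad M u Q l := by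
  rw [bad, Bool.not_eq_true', Bool.not_eq_false, Nat.beq_eq]
  refine Nat.mod_eq_zero_of_dvd (Int.natCast_dvd_natCast.1
    ⟨(l.map fun a : ℕ => ((256 ^ (a % M) : ℕ) : ℤ)).sum, (sN_eq _ l).trans ?_⟩)
  simp only [Nat.add_eq, Nat.mul_eq, Nat.pow_eq, Nat.cast_add, Nat.cast_mul, List.sum_map_add, List.sum_map_mul_left,
    show ∀ a b : ℕ, a.mod b = a % b from fun _ _ => rfl, h, Nat.cast_succ]
  ring

theorem good {l : List ℕ} (D : Dbl 65 y) (h : ∀ G : ℤ → ℤ, (∀ n : ℤ, ¬ true → G n = 0) →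
    ES cE8 65 G y = 8 * G 0 + (l.map fun n : ℕ => G (n % (65 : ℕ))).sum) : ¬ bad 65 2 (2 ^ 600) l := by
  have e := D fun n => 256 ^ n.toNat
  rw [ES_smul, h _ (by simp), h _ (by simp), mul_zero, Int.zero_emod, add_right_inj] at e
  refine not_bad (.trans ?_ (e.trans ?_)) <;> refine congrArg _ (List.map_congr_left fun a _ => ?_) <;>
    rw [Nat.cast_pow]
  · congr 1; omega
  · rfl

end E2

open E2

variable {X : Type*} [Group X] {L : LS cE8 1 2 2 1 X} {f : L.G →* GL Ix L.K} (hf : L.ρ.IsAdHom f)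
include hf

set_option maxHeartbeats 2000000 in
theorem t65_X (x : X) (l : L.Kˣ) (hx : orderOf x = 65) (hl : orderOf l = 65) :
    [0, 1, 3, 7, 11, 5, 13].map (fun i => ed (rX L f) ⊤ x ((l ^ i : L.Kˣ) : L.K)) ∈ T65 ∧
      dm (rX L f) (x ^ 5) = 20 := by
  obtain ⟨g, -, y, e, D, z, hz, q⟩ := diag (m := 13) (by decide) (by decide) hl (hx ▸ pow_orderOf_eq_one x) chk13
  have n1 : ∀ {j k : ℕ}, j * k = 65 → j ≠ 1 → ¬ ∀ i, (j : ℤ) ∣ y i := fun {j k} e' j1 h => by
    have := orderOf_dvd_of_pow_eq_one (one_of hl e (k := k) fun i => by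
      rw [← e', mul_comm j, Nat.cast_mul]; exact mul_dvd_mul_left _ (h i))
    rw [hx, ← e'] at this
    have k0 : 0 < k := Nat.pos_of_ne_zero (by rintro rfl; omega)
    exact j1 (Nat.dvd_one.1 ((Nat.mul_dvd_mul_iff_right k0).1 (by rwa [one_mul])))
  have lin : ∀ {c} {j : Fin 8}, chkL 13 5 z c j → ((5 : ℕ) : ℤ) ∣ y j := fun h =>
    of_chkL h (by decide) (by decide) (by decide) hz D
  simp only [Bool.or_eq_true, beq_iff_eq] at q
  rcases q with (q | rfl) | rfl
  · exact absurd (dvd_of_all dvd_rfl hz q) (n1 (k := 5) rfl (by decide))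
  · obtain ⟨t, s, h, h0, hp, hG⟩ := of_chkE (k := 5) ct (by decide) (by decide) (by decide) (by decide) (by omega) hz fun i => by
      fin_cases i
      exacts [.inr ⟨rfl, lin l13t.1⟩, .inr ⟨rfl, lin l13t.2.1⟩, .inl rfl, .inl rfl, .inr ⟨rfl, lin l13t.2.2.1⟩, .inl rfl,
        .inl rfl, .inr ⟨rfl, lin l13t.2.2.2⟩]
    simp only [Bool.or_eq_true, beq_iff_eq, Comp.forceL_eq, Bool.and_eq_true, mu] at h
    obtain ⟨h1, h2⟩ := h.resolve_left (not_or.2 ⟨good D hG, mt h0 (n1 (k := 13) rfl (by decide))⟩)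
    rw [← hG _ (by simp)] at h2
    refine ⟨(congrArg (· ∈ T65) (List.map_congr_left fun i _ => ?_)).mpr (of_decide_eq_true h1), Nat.cast_injective (R := ℤ)
      ((dm_eq hf hl e 5).trans h2)⟩
    rw [← hG _ (by simp), ← ed_eq hf hl e i, Int.toNat_natCast]
  · obtain ⟨t, s, h, h0, hp, hG⟩ := of_chkE (k := 5) cf (by decide) (by decide) (by decide) (by decide) (by omega) hz fun i => by
      fin_cases i
      exacts [.inr ⟨rfl, lin l13f.1⟩, .inl rfl, .inl rfl, .inl rfl, .inl rfl, .inr ⟨rfl, lin l13f.2.1⟩,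
        .inr ⟨rfl, lin l13f.2.2.1⟩, .inr ⟨rfl, lin l13f.2.2.2⟩]
    simp only [Bool.or_eq_true, beq_iff_eq] at h
    exact absurd h (not_or.2 ⟨good D hG, mt h0 (n1 (k := 13) rfl (by decide))⟩)

set_option maxHeartbeats 2000000 in
theorem t63_X (y : X) (hy : orderOf y = 63) :
    dm (rX L f) (y ^ 7) ∈ [28, 34, 48] ∧ dm (rX L f) (y ^ 21) = 86 := by
  obtain ⟨μ, hμ⟩ := exists_μ L (m := 63) (by decide)
  obtain ⟨g, -, v, e, D, z, hz, q⟩ := diag (m := 9) (by decide) (by decide) hμ (hy ▸ pow_orderOf_eq_one y) chk9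
  have n1 : ∀ {j k : ℕ}, j * k = 63 → j ≠ 1 → ¬ ∀ i, (j : ℤ) ∣ v i := fun {j k} e' j1 h => by
    have := orderOf_dvd_of_pow_eq_one (one_of hμ e (k := k) fun i => by
      rw [← e', mul_comm j, Nat.cast_mul]; exact mul_dvd_mul_left _ (h i))
    rw [hy, ← e'] at this
    have k0 : 0 < k := Nat.pos_of_ne_zero (by rintro rfl; omega)
    exact j1 (Nat.dvd_one.1 ((Nat.mul_dvd_mul_iff_right k0).1 (by rwa [one_mul])))
  simp only [Bool.or_eq_true, beq_iff_eq, Bool.and_eq_true, decide_eq_true_eq] at q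
  rcases q with (q | rfl) | q
  · exact absurd (dvd_of_all (k := 3) (by decide) hz q) (n1 (k := 21) rfl (by decide))
  · have lin : ∀ {c} {j : Fin 8}, chkL 9 7 x9 c j → ((7 : ℕ) : ℤ) ∣ v j := fun h =>
      of_chkL h (by decide) (by decide) (by decide) hz D
    obtain ⟨t, s, h, h0, hp, hG⟩ := of_chkE (k := 7) c9 (by decide) (by decide) (by decide) (by decide) (by omega) hz fun i => by
      fin_cases i
      exacts [.inr ⟨rfl, lin l9.1⟩, .inr ⟨rfl, lin l9.2.1⟩, .inl rfl, .inl rfl, .inl rfl, .inl rfl, .inr ⟨rfl, lin l9.2.2⟩,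
        .inl rfl]
    simp only [Bool.or_eq_true, beq_iff_eq] at h
    refine absurd h (not_or.2 ⟨?_, mt h0 (n1 (k := 9) rfl (by decide))⟩)
    have e := D fun n => if n % 9 = 3 then 256 ^ (n % 7).toNat else 0
    rw [← ES_neg, ← neg_smul, ES_smul, hG _ fun n hn => if_neg (by simp at hn; omega),
      hG _ fun n hn => if_neg (by simp at hn; omega), mul_zero, Int.zero_emod, add_right_inj] at e
    refine not_bad (.trans ?_ (e.trans ?_)) <;> refine congrArg _ (List.map_congr_left fun a ha => ?_) <;>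
      have := beq_iff_eq.1 (hp a ha) <;> rw [Nat.cast_pow, if_pos (by omega)] <;> congr 1 <;> omega
  · have k : ∀ (i : ℕ) (j : ℤ), i = 7 ∧ j = 1 ∨ i = 21 ∧ j = 3 → dm (rX L f) (y ^ i) = sl (ind 9 j 0) (vals 9 z) :=
      fun i j hj => by
        refine (dm_eq hf hμ e i).trans (.trans ?_ ((ES_congr (C := cE8) hz).trans (ES_eq (by decide) _ z)))
        refine congrArg₂ (· + ·) (by simp [ind]) (sum_congr rfl fun r _ => if_congr ?_ rfl rfl)
        rcases hj with ⟨rfl, rfl⟩ | ⟨rfl, rfl⟩ <;> omega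
    obtain ⟨q1, q2⟩ := q
    rw [← k 7 1 (.inl ⟨rfl, rfl⟩)] at q1
    exact ⟨by simpa [← Nat.cast_inj (R := ℤ)] using q1, Nat.cast_injective (R := ℤ) ((k 21 3 (.inr ⟨rfl, rfl⟩)).trans q2)⟩

end CF.Ey
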