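import Cfsg.Agent.Ey.B

/-! Subspaces of the adjoint module of `E₈` that are stable under a maximal torus. -/

set_option autoImplicit false

namespace CF.Ey

open Module CF.E83 CF.Chev CF.BN CF.ExA Cfsg.Lie Finset CF.Geom.Sm Matrix Sum

namespace E3b

theorem single_mem {K I : Type*} [Field K] [Fintype I] [DecidableEq I] {W : Submodule K (I → K)} {a : I}
    (h : ∀ b ≠ a, ∃ d : I → K, d a ≠ d b ∧ ∀ v ∈ W, d * v ∈ W) {v : I → K} (hv : v ∈ W) :
    Pi.single a (v a) ∈ W := by
  have : ∀ T : Finset I, a ∉ T → ∃ w ∈ W, w a = v a ∧ ∀ b ∈ T, w b = 0 := fun T => by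
    induction T using Finset.induction with
    | empty => exact fun _ => ⟨v, hv, rfl, by simp⟩
    | insert b T _ ih =>
      intro e
      rw [mem_insert, not_or] at e
      obtain ⟨w, h1, h2, h3⟩ := ih e.2
      obtain ⟨d, h4, h5⟩ := h b (Ne.symm e.1)
      refine ⟨(d a - d b)⁻¹ • (d * w - d b • w), W.smul_mem _ (sub_mem (h5 w h1) (W.smul_mem _ h1)), ?_,
        forall_mem_insert _ _ _ |>.2 ⟨by simp, fun c hc => by simp [h3 c hc]⟩⟩
      simp [← sub_mul, ← mul_assoc, sub_ne_zero.2 h4, h2]
  obtain ⟨w, h1, h2, h3⟩ := this (univ.erase a) (by simp)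
  convert h1 using 1
  funext b
  by_cases e : b = a
  · simp [e, h2]
  · simp [e, h3]

/-- The class of a root modulo two. -/
def hs (r : ℕ) : ℕ := (∑ i : Fin 8, 2 ^ i.1 * (tabE8.car i r % 2)).toNat

theorem hs_tab : ∀ r < 240, hs r ≠ 0 ∧ 51988117398903772497090412977916078017778986895557861623302582843507685017001946841489694279354313578479007245967941998630827057443251683954977717660214622551850155461455918329219373276352107057074262552504678637785631059784598727975547221575536037125736039461306423663988566947906315005220953625378775015662257062767701291137513612384287157325104408595929493281502991723811631454755726991665170314692996656501380344234333383880619704800134013414329013802301827830677567254094134583984416728666195030732468163126498287026775915495424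
    / 128 ^ hs r % 128 = min r (239 - r) := by decide +kernel

variable {K : Type*} [Field K] [CharP K 2]

theorem sp_mod (i : Fin 8) (r : Fin 240) {n : ℤ} (h : (cE8.sp i (cE8.vec r) : K) = n) :
    tabE8.car i r % 2 = n % 2 := by
  rw [← tabOf8.car, RootSys.A_simple]
  exact (CharP.intCast_eq_intCast K 2).1 h

theorem sep {r s : Fin 240} (h : ∀ i, (cE8.sp i (cE8.vec r) : K) = cE8.sp i (cE8.vec s)) :
    s = r ∨ s = cE8.neg r := by
  have h1 : hs r = hs s := by
    simp only [hs, fun i => sp_mod i r (h i), fun i => sp_mod (K := K) i s rfl]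
  have h2 := (hs_tab r r.2).2
  rw [h1, (hs_tab s s.2).2] at h2
  rw [Fin.ext_iff, Fin.ext_iff, tabOf8.neg, show tabE8.neg r = 239 - r from rfl]
  omega

theorem sep0 (r : Fin 240) : ∃ i, (cE8.sp i (cE8.vec r) : K) ≠ 0 := by
  by_contra! h
  exact (hs_tab r r.2).1 (by simp [hs, fun i => sp_mod i r (n := 0) ((h i).trans Int.cast_zero.symm)])

theorem br_h (i : Fin 8) (v : Ix → K) :
    brK K (LieBasis.bv K (inl i)) v = (fun a => (cE8.sp i (cE8.wt a) : K)) * v := by
  funext a
  rw [brK_apply, LieBasis.ad_bv, LieBasis.br_inl, mulVec_diagonal]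
  rfl

variable {X : Type*} [Group X] {L : LS cE8 1 2 2 1 X} {f : L.G →* GL Ix L.K} (hf : L.ρ.IsAdHom f)
include hf

theorem brG (g : L.G) (u v : Ix → L.K) :
    RR f g (brK L.K u v) = brK L.K (RR f g u) (RR f g v) := by
  have : cE8.IsAut (f g).val := L.ρ.U_induction (p := fun g => cE8.IsAut (f g).val)
    (by simpa using cE8.isAut_one) (fun g r t _ _ ih => by
      rw [map_mul, Units.val_mul, hf, LieBasis.val_xG]
      exact ih.mul (cE8.isAut_X r t)) (L.h.top ▸ Subgroup.mem_top g)
  rw [brK_apply, brK_apply]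
  change (f g).val *ᵥ _ = cE8.ad _ ((f g).val *ᵥ u) *ᵥ (f g).val *ᵥ v
  rw [mulVec_mulVec, mulVec_mulVec, this]

theorem tor_v (c : Fin 8 → L.Kˣ) (v : Ix → L.K) : RR f (L.h.r3.tor c) v =
    (fun a => ((cE8.torChar c).ev (cE8.wt a) : L.K)) * v := by
  funext a
  change ((f _).val *ᵥ v) a = _
  rw [ad_tor _ hf, LieBasis.val_tG, LieBasis.TM, mulVec_diagonal]
  rfl

end E3b

open E3b

variable {X : Type*} [Group X] {L : LS cE8 1 2 2 1 X} {f : L.G →* GL Ix L.K} (hf : L.ρ.IsAdHom f)
include hf

set_option linter.unusedVariables false in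
theorem tor_of {x b : X} (hx : x ^ 65 = 1) (h : Toral L.ρ {jG L b, jG L x}) :
    (∀ W, P1 (rX L f) (brK L.K) x W → ∀ v ∈ W, rX L f b v ∈ W) ∧
      ∀ v, P2 (rX L f) (brK L.K) x v → rX L f b v = v := by
  obtain ⟨g, h⟩ := h
  obtain ⟨c, hc⟩ := L.h.r3.range_tor.ge (h (jG L x) (by simp))
  obtain ⟨d, hd⟩ := L.h.r3.range_tor.ge (h (jG L b) (by simp))
  have h1 : ∀ {y c}, L.h.r3.tor c = g⁻¹ * jG L y * g → ∀ v,
      rX L f y (RR f g v) = RR f g (RR f (L.h.r3.tor c) v) := fun e v => by
    rw [e, ← End.mul_apply, ← End.mul_apply, ← map_mul, ← mul_assoc, ← mul_assoc, mul_inv_cancel,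
      one_mul, map_mul]
    rfl
  have h2 : ∀ v, ∃ u, v = RR f g u := fun v => ⟨RR f g⁻¹ v, by
    rw [← End.mul_apply, ← map_mul, mul_inv_cancel, map_one, End.one_apply]⟩
  have h3 : ∀ a k, (cE8.torChar c).ev (cE8.wt a) = 1 → RR f g (Pi.single a k) ∈ fs (rX L f x) :=
    fun a k e => mem_fs.2 (by
      rw [h1 hc, tor_v hf]
      congr 1
      funext b
      by_cases k : b = a <;> simp [k, e])
  have h4 : ∀ i, RR f g (LieBasis.bv L.K (inl i)) ∈ fs (rX L f x) := fun i => h3 _ _ (by simp)
  refine ⟨fun W ⟨w1, w2, w3⟩ v hv => ?_, fun v hv => ?_⟩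
  · obtain ⟨u, rfl⟩ := h2 v
    have h5 : ∀ a, Pi.single a (u a) ∈ W.comap (RR f g) := fun a => by
      by_cases e : (cE8.torChar c).ev (cE8.wt a) = 1
      · exact w2 (h3 a _ e)
      refine single_mem (fun b hb => ?_) hv
      by_cases k : (cE8.torChar c).ev (cE8.wt a) = (cE8.torChar c).ev (cE8.wt b)
      · rcases a with i | r
        · simp at e
        rcases b with j | s
        · exact absurd (k.trans (by simp)) e
        by_contra! k'
        rcases sep (K := L.K) (r := r) (s := s) fun i => by_contra fun n => by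
          obtain ⟨v, h6, h7⟩ := k' (fun a => (cE8.sp i (cE8.wt a) : L.K)) n
          exact h7 (by rw [← br_h, Submodule.mem_comap, brG hf]; exact w3 _ (h4 i) _ h6) with rfl | rfl
        · exact hb rfl
        · rw [RootSys.wt_inr, RootSys.wt_inr, cE8.vec_neg, Char.ev_neg, ← mul_eq_one_iff_eq_inv,
            Units.ext_iff, Units.val_mul, Units.val_one, mul_self_eq_one_iff, CharTwo.neg_eq] at k
          exact e (Units.ext (k.elim id id))
      · exact ⟨_, Units.val_injective.ne k, fun v hv => by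
          rw [← tor_v hf, Submodule.mem_comap, ← h1 hc]; exact w1 _ hv⟩
    rw [h1 hd, tor_v hf, ← univ_sum_single u, mul_sum, map_sum]
    refine sum_mem fun a _ => ?_
    convert W.smul_mem ((cE8.torChar d).ev (cE8.wt a) : L.K) (h5 a) using 1
    rw [← map_smul]
    congr 1
    funext b
    by_cases k : b = a <;> simp [k]
  · obtain ⟨u, rfl⟩ := h2 v
    rw [h1 hd, tor_v hf]
    congr 1
    funext a
    rcases a with i | r
    · simp
    obtain ⟨i, hi⟩ := sep0 (K := L.K) r
    have h5 := congrArg (RR f g⁻¹) (hv.2 _ (h4 i))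
    rw [← brG hf, ← End.mul_apply, ← map_mul, inv_mul_cancel, map_one, End.one_apply, br_h, map_zero] at h5
    simp [(mul_eq_zero.1 (congrFun h5 (inr r))).resolve_left hi]

end CF.Ey
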