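import Cfsg.Agent.Ey.B
import Cfsg.Agent.Ev.G4

/-! Elements of order `13` in `E₈(2)` whose centralizer has order divisible by `25`. -/

set_option autoImplicit false

namespace CF.Ey

open Module CF.E83 CF.Chev CF.BN CF.ExA Cfsg.Lie Finset CF.Geom.Sm Matrix

namespace E4

/-- The twist. -/
def wl : List (Fin 8) := [0, 2, 3, 4, 5, 1, 3, 4, 2, 3, 0, 2, 1, 3, 4, 5, 6, 7, 5, 4, 3, 2, 1, 3, 4, 5,
  6, 0, 2, 3, 4, 5, 1, 3, 4, 2, 3, 0, 2, 1, 3, 4, 5, 6, 7, 3, 0, 2, 1, 3, 4, 5, 6, 2, 1, 3, 4, 5, 2, 3,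
  4, 0, 2, 1, 3, 2, 1, 0]

/-- Its matrix. -/
def wM : List (List ℤ) := [[-1, -1, 0, 0, 1, 0, 0, -1], [-1, -2, 0, 0, 2, 0, 0, -2],
  [-2, -2, 0, 0, 3, -1, 0, -2], [-3, -3, 0, 0, 4, 0, -1, -3], [-3, -2, 0, 0, 3, 0, 0, -3],
  [-3, -2, 1, 0, 2, 0, 0, -2], [-2, -2, 0, 1, 1, 0, 0, -1], [-1, -1, 0, 0, 1, 0, 0, 0]]

theorem c13 : chk 13 fun x l => sl (ind 13 1 0) l != 20 || x == x13 true := by decide +kernel

theorem cw : CF.Geom.Sm.chkW 13 wl (gl (x13 true)) fun i => 2 * gl (x13 true) i := by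
  decide +kernel

theorem cM : ∀ i j : Fin 8, MwT tabE8 (wl.map Fin.val) i j = gd wM i j := by decide +kernel

/-- The elimination. -/
def wL : List (List ℤ) := [[1], [-1, 3], [-6, -4, 11], [-9, -6, 0, 11], [-10, -3, 0, 0, 11],
  [-40, -13, 5, 0, 31, 10], [-25, -11, 0, 5, 17, 0, 10], [-5, -2, 0, 0, 4, 0, 0, 5]]

theorem dt : (diagonal (fun _ => (2 : ℤ)) - Ev.mx wM).det = 325 := Ev.det_cert (L := Ev.mx wL)
    ⟨show ∀ i j : Fin 8, i < j → gd wL i j = 0 by decide +kernel,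
      by refine ⟨?_, ?_, ?_⟩ <;> decide +kernel⟩

end E4

open E4 in
theorem c25 {X : Type*} [Group X] {L : LS cE8 1 2 2 1 X} {f : L.G →* GL Ix L.K}
    (hf : L.ρ.IsAdHom f) [Finite X] {a : X} (ha : a ^ 13 = 1) (h : dm (rX L f) a = 20) :
    25 ∣ Nat.card (Subgroup.centralizer ({a} : Set X)) := by
  obtain ⟨μ, hμ⟩ := exists_μ L (m := 13) (by decide)
  obtain ⟨g, hg, y, h2, w, hw, hc⟩ := exists_diag (by decide) hμ ha
  obtain ⟨v, hv, z, h4, h5⟩ := alc c13 hw hc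
  have h6 : jG L a = g * (L.ρ.nw (wd cE8 v))⁻¹ * L.h.r3.tor (fun i => μ ^ vv (gl z) i) *
      (g * (L.ρ.nw (wd cE8 v))⁻¹)⁻¹ := by
    rw [← (zp_iff hμ).2 h4, ← mp_zpow, ← conj_tor _ (nW_wd hv).acts, h2]; group
  have h7 := rk_tor L.h.r3 hf hμ (vv (gl z)) 0
  rw [dm, MonoidHom.comp_apply, h6, map_mul, map_mul, fs_conj, (fs_eig _).1] at h
  rw [zpow_zero, Units.val_one, h, ES_eq (by decide)] at h7
  obtain rfl : z = x13 true := by
    simpa [show sl (ind 13 1 0) (vals 13 z) = 20 from h7.symm] using h5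
  obtain ⟨u, h8, h9⟩ := Ev.twist L.frob L.big L.σ_x (l := wl) (isOfFinOrder_iff_pow_eq_one.2
    ⟨13, by decide, by rw [zp_pow, ← hμ, pow_orderOf_eq_one]; funext i; simp⟩)
    (by rw [mp_zpow, zp_pow', zp_iff hμ]; exact of_chkW cw)
    (mul_mem hg (inv_mem (L.h.nw_mem_Alg _))) (h6 ▸ σ_jG L a)
  rw [← h6] at h9
  have h10 := card_WTor (K := L.K) (q := 2) (by decide) L.cast_q (cE8.wp_mem_Aut wl)
  rw [show Mw cE8 (cE8.wp wl) = Ev.mx wM from Matrix.ext fun i j => (tabOf8.Mw _ i j).trans (cM i j),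
    Nat.cast_ofNat, dt] at h10
  have h11 := Subgroup.card_dvd_of_le (show (WTor cE8 L.K (Pm 1 2) (cE8.wp wl)).map
      ((MulAut.conj u).toMonoidHom.comp L.h.r3.tor) ≤ (Subgroup.centralizer {a}).map (jG L) by
    rintro _ ⟨t, ht, rfl⟩
    obtain ⟨b, hb⟩ := exists_jG L (g := u * L.h.r3.tor t * u⁻¹) (by
      rw [map_mul, map_mul, map_inv, eq_mul_inv_of_mul_eq h8]
      conv_rhs => rw [← Ev.fix_tor (h := L.h) L.σ_x (mem_WTor_one.1 ht)]
      simp [mul_assoc])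
    refine ⟨b, Subgroup.mem_centralizer_singleton_iff.2 ((in_jG L).inj ?_), hb⟩
    rw [map_mul, map_mul, hb, ← h9, conj_mul, conj_mul, ← map_mul, ← map_mul, mul_comm t])
  rw [Subgroup.card_map_of_injective ((MulAut.conj u).injective.comp L.h.inj),
    Subgroup.card_map_of_injective (in_jG L).inj, Int.natCast_inj.1 h10] at h11
  exact Dvd.dvd.trans (by decide) h11

open Subgroup in
theorem exists_b {X : Type*} [Group X] [Finite X] {x : X} (hx : orderOf x = 65)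
    (h : 25 ∣ Nat.card (centralizer ({x ^ 5} : Set X))) : ∃ b, ∃ k : ℕ, b ^ 5 ^ k = 1 ∧
      Commute b x ∧ ∀ H : Subgroup X, x ∈ H → b ∈ H → 25 ∣ Nat.card H := by
  haveI : Fact (Nat.Prime 5) := ⟨Nat.prime_five⟩
  set C := centralizer ({x ^ 5} : Set X)
  let y : C := ⟨x ^ 13, mem_centralizer_singleton_iff.2 (Commute.pow_pow_self x 13 5)⟩
  have h1 : Nat.card (zpowers y) = 5 := by
    rw [Nat.card_zpowers, ← orderOf_coe, orderOf_pow, hx]; rfl
  obtain ⟨P, hP⟩ := (IsPGroup.of_card (p := 5) (n := 1) h1).exists_le_sylow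
  have h2 : ¬ (P : Subgroup C) ≤ zpowers y := fun e => by
    have := (P.pow_dvd_card_of_pow_dvd_card (n := 2) h).trans (card_dvd_of_le e)
    rw [h1] at this
    omega
  obtain ⟨b, b1, b2, b3⟩ : ∃ b ∈ (P : Subgroup C), b ∉ zpowers y ∧ Commute b y := by
    have : Nontrivial P := (nontrivial_iff_ne_bot _).2 fun e => h2 (e.le.trans bot_le)
    obtain ⟨c, c1⟩ := @exists_ne _ P.isPGroup'.center_nontrivial 1
    have c2 : ∀ b ∈ (P : Subgroup C), Commute b c.1.1 := fun b hb =>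
      congrArg Subtype.val (mem_center_iff.1 c.2 ⟨b, hb⟩)
    by_cases e : c.1.1 ∈ zpowers y
    · obtain ⟨b, b1, b2⟩ := SetLike.not_le_iff_exists.1 h2
      obtain ⟨k, hk⟩ := mem_zpowers_of_prime_card (g := (⟨_, e⟩ : zpowers y)) (g' := ⟨y, mem_zpowers y⟩) h1
        fun k => c1 (Subtype.ext (Subtype.ext (Subtype.mk.inj k)))
      exact ⟨b, b1, b2, by
        rw [← show c.1.1 ^ k = y from congrArg Subtype.val hk]; exact (c2 b b1).zpow_right k⟩
    · exact ⟨_, c.1.2, e, (c2 y (hP (mem_zpowers y))).symm⟩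
  obtain ⟨k, hk⟩ := P.isPGroup' ⟨b, b1⟩
  refine ⟨b, k, congrArg (fun t : P => t.1.1) hk, ?_, fun H h3 h4 => ?_⟩
  · rw [← pow_one x, ← pow_mod_orderOf, hx, show 1 % 65 = (13 * 2 + 5 * 8) % 65 from rfl, ← hx,
      pow_mod_orderOf, pow_add, pow_mul, pow_mul]
    exact ((b3.map C.subtype).pow_right 2).mul_right
      (Commute.pow_right (mem_centralizer_singleton_iff.1 b.2) 8)
  · obtain ⟨n, hn⟩ := (P.isPGroup'.to_inf_left (K := H.subgroupOf C)).exists_card_eq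
    have h5 : Nat.card (zpowers y) < Nat.card ↥(P.1 ⊓ H.subgroupOf C) :=
      Set.Finite.card_lt_card (Set.toFinite _) (show zpowers y < P.1 ⊓ H.subgroupOf C from
      ⟨zpowers_le.2 ⟨hP (mem_zpowers y), pow_mem h3 13⟩, fun e => b2 (e ⟨b1, h4⟩)⟩)
    rw [h1, hn] at h5
    exact ((pow_dvd_pow 5 (show 2 ≤ n from (Nat.pow_lt_pow_iff_right (a := 5) (n := 1) (by decide)).1 h5)).trans
      (hn ▸ card_dvd_of_le inf_le_right)).trans (card_comap_dvd_of_injective H _ C.subtype_injective)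

end CF.Ey
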