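import Cfsg.Agent.Ey.E1
import Cfsg.Agent.Ey.E2
import Cfsg.Agent.Ey.E3
import Cfsg.Agent.Ey.E4
import Cfsg.Agent.Ey.E3b

/-! The adjoint module of `E₈(2)`: all the facts that are used. -/

set_option autoImplicit false

namespace CF.Ey

open Module Matrix CF.E83 CF.Chev CF.BN CF.ExA Cfsg Cfsg.Lie CF.Geom.Sm

theorem dt_X {X : Type*} [Group X] {L : LS cE8 1 2 2 1 X} {f : L.G →* GL Ix L.K}
    (hf : L.ρ.IsAdHom f) [Finite X] : Dt (rX L f) (brK L.K) (fmK L.K) (frK L.K) := by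
  refine ⟨by simp, fun g => br_G hf _, fm_X hf, fr_X hf, irr_X hf,
    fun x l a b => (t65_X hf x l a b).1, t63_X hf, z8_X hf, z12_X hf, fun x hx => ?_⟩
  obtain ⟨l, hl⟩ := exists_μ L (m := 65) (by decide)
  have h1 : x ^ 65 = 1 := hx ▸ pow_orderOf_eq_one x
  obtain ⟨b, k, h2, h3, h4⟩ := exists_b hx (c25 hf (by rw [← pow_mul, h1]) (t65_X hf x l hx hl).2)
  exact ⟨b, h4, tor_of hf h1 ((in_jG L).toral_pair h3 (by rw [hx]; decide) Nat.prime_five (by decide) h2)⟩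

theorem exists_dt : ∃ (K : Type) (_ : Field K) (_ : IsAlgClosed K) (_ : CharP K 2)
    (r : chevE8.group (ZMod 2) →* End K (Ix → K)), Dt r (brK K) (fmK K) (frK K) := by
  obtain ⟨L⟩ : Nonempty (LS.{0} cE8 1 2 2 1 (chevE8.group (ZMod 2))) :=
    exists_LS_chev goodE8 (fun K _ => torE8 K) cenE8 (ZMod 2) 2
  obtain ⟨f, hf⟩ := L.h.faith
  have : Finite (chevE8.group (ZMod 2)) :=
    Nat.finite_of_card_ne_zero ((cardE8 (ZMod 2) (Nat.card_zmod 2)).trans_ne (by decide +kernel))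
  exact ⟨L.K, _, L.big.1, _, _, dt_X hf⟩

end CF.Ey
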